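import Cfsg.Agent.H38.P4.Wk

/-!
# S5210, `q = 3`: (3A) (helper38)
-/

set_option autoImplicit false

namespace Cfsg.Agent.H38.P4

open Cfsg Cfsg.FusionSystem Cfsg.Agent.H776.P4
open Cfsg.Agent.H756.PU (NormAut TIAut)

universe u

variable {K : Type u} [Field K] [StarRing K]

/-- the automorphisms trivial on `Q/Z` -/
def TT (h3 : (3 : K) = 0) : Subgroup (MulAut (PQ K)) where
  carrier := {γ | (∀ r b, Fr γ r b = r) ∧ ∀ r b, Fb γ r b = b}
  one_mem' := ⟨fun _ _ => rfl, fun _ _ => rfl⟩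
  mul_mem' := by
    rintro γ δ ⟨h2, h4⟩ ⟨k2, k4⟩
    exact ⟨fun r b => by rw [Fr_mul h3, h2, k2], fun r b => by rw [Fb_mul h3, h4, k4]⟩
  inv_mem' := by
    rintro γ ⟨h2, h4⟩
    refine ⟨fun r b => ?_, fun r b => ?_⟩
    · have h5 := (F_mul_inv h3 γ r b).1
      rwa [h2] at h5
    · have h5 := (F_mul_inv h3 γ r b).2
      rwa [h4] at h5

theorem TT_normal (h3 : (3 : K) = 0) : (TT h3 : Subgroup (MulAut (PQ K))).Normal := ⟨by
  rintro γ ⟨h2, h4⟩ g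
  refine ⟨fun r b => ?_, fun r b => ?_⟩
  · rw [Fr_mul h3, Fr_mul h3, h2, h4]
    exact (F_mul_inv h3 g r b).1
  · rw [Fb_mul h3, Fb_mul h3, h2, h4]
    exact (F_mul_inv h3 g r b).2⟩

theorem TT_le (h : N9 K) : TT h.three ≤ AS K := by
  rintro γ ⟨h2, h4⟩
  obtain ⟨g, hg⟩ := inner_of_triv h h2 h4
  exact mem_AS_of_inner hg

/-- closure under the group operations in a finite group -/
theorem inv_mem_of_finite {G : Type*} [Group G] [Finite G] (M : Submonoid G) {x : G} (hx : x ∈ M) : x⁻¹ ∈ M := by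
  have h1 : x⁻¹ = x ^ (Nat.card G - 1) := by
    rw [inv_eq_iff_mul_eq_one, ← pow_succ', Nat.sub_add_cancel Nat.card_pos, pow_card_eq_one']
  rw [h1]
  exact M.pow_mem hx _

section main

variable {Γ : Subgroup (MulAut (PQ K))} {D : Subgroup (MulAut (PG K))}

theorem normAut_mul {γ δ : MulAut (PQ K)} (h1 : NormAut (⊤ : Subgroup (PG K)) γ)
    (h2 : NormAut (⊤ : Subgroup (PG K)) δ) : NormAut (⊤ : Subgroup (PG K)) (γ * δ) := by
  intro x hx
  have := h1 _ (h2 x hx)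
  have e : γ * δ * x * (γ * δ)⁻¹ = γ * (δ * x * δ⁻¹) * γ⁻¹ := by group
  rw [e]
  exact this

/-- the structure needed -/
structure Dat (K : Type u) [Field K] [StarRing K] (Γ : Subgroup (MulAut (PQ K))) (D : Subgroup (MulAut (PG K))) :
    Prop where
  nine : N9 K
  wk : ∀ κ : K, ∃ γ : MulAut (PQ K), IsWk κ γ
  tp : ∀ α ∈ TP K, ∃ s l τ, IsTorP α s l τ
  par : ParP 3 (PQ K) Γ D
  ex1 : ∃ d ∈ D, ∃ i : K, i * i = -1 ∧ IsTorP d i (-1) (RingEquiv.refl K)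

theorem Dat.inv (H : Dat K Γ D) : InvK D (Pt Γ) := by
  intro d hd s l τ ht κ hκ
  obtain ⟨W, hWΓ, hW⟩ := hκ
  obtain ⟨W', hW'⟩ := H.wk (actK s l τ κ)
  obtain ⟨δ, hδ⟩ := tor_res ht
  have hδΓ : δ ∈ Γ := H.par.D_res d hd δ hδ
  exact ⟨W', (mem_conj_iff H.nine H.par.indu ht hδ hW hW').1 (Γ.mul_mem (Γ.mul_mem hδΓ hWΓ) (Γ.inv_mem hδΓ)), hW'⟩

theorem Dat.lam_le (H : Dat K Γ D) : LamP (Pt Γ) ≤ Γ := by
  have h3 := H.nine.three
  refine sup_le H.par.indu ((Subgroup.closure_le _).2 ?_)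
  rintro γ ⟨κ, ⟨W, hWΓ, hW⟩, hγ⟩
  refine mem_of_same H.nine H.par.indu hWΓ (fun r b => ?_) (fun r b => ?_)
  · rw [(wk_F h3 hγ r b).1, (wk_F h3 hW r b).1]
  · rw [(wk_F h3 hγ r b).2, (wk_F h3 hW r b).2]

/-- the decomposition of the normaliser -/
theorem Dat.norm (H : Dat K Γ D) {ν : MulAut (PQ K)} (hν : ν ∈ Γ) (hN : NormAut (⊤ : Subgroup (PG K)) ν) :
    ∃ x ∈ AS K, ∃ d ∈ D, ∃ δ : MulAut (PQ K), IsRP d δ ∧ (∃ s l τ, IsTorP d s l τ) ∧ ν = x * δ := by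
  obtain ⟨g, d, hd, h1⟩ := H.par.norm ν hν hN
  obtain ⟨s, l, τ, ht⟩ := H.tp d (H.par.D_le hd)
  obtain ⟨δ, hδ⟩ := tor_res ht
  obtain ⟨x, hx⟩ := exists_conj g
  refine ⟨x, mem_AS.2 ⟨g, hx⟩, d, hd, δ, hδ, ⟨s, l, τ, ht⟩, ?_⟩
  ext1 e
  apply Subtype.ext
  rw [h1]
  show _ = ((x (δ e) : PQ K) : PG K)
  rw [hx, hδ]

theorem AS_le_lam (P : Set K) : AS K ≤ LamP P := le_sup_left

theorem wk_mem_lam {P : Set K} {κ : K} (hκ : κ ∈ P) {W : MulAut (PQ K)} (hW : IsWk κ W) : W ∈ LamP P :=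
  (le_sup_right : Subgroup.closure _ ≤ LamP P) (Subgroup.subset_closure ⟨κ, hκ, hW⟩)

theorem Dat.conj_lam (H : Dat K Γ D) {ν : MulAut (PQ K)} (hν : ν ∈ Γ) (hN : NormAut (⊤ : Subgroup (PG K)) ν)
    {l : MulAut (PQ K)} (hl : l ∈ LamP (Pt Γ)) : ν * l * ν⁻¹ ∈ LamP (Pt Γ) := by
  obtain ⟨x, hx, d, hd, δ, hδ, ⟨s, m, τ, ht⟩, hνx⟩ := H.norm hν hN
  have h1 : LamP (Pt Γ) ≤ (LamP (Pt Γ)).comap (MulAut.conj ν).toMonoidHom := by
    refine sup_le (fun y hy => AS_le_lam _ (hN y hy)) ((Subgroup.closure_le _).2 ?_)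
    rintro W ⟨κ, hκ, hW⟩
    obtain ⟨W', hW'⟩ := H.wk (actK s m τ κ)
    have h2 := (mem_conj_iff H.nine (AS_le_lam (Pt Γ)) ht hδ hW hW').2
      (wk_mem_lam (H.inv d hd s m τ ht κ hκ) hW')
    show ν * W * ν⁻¹ ∈ LamP (Pt Γ)
    have h3 : ν * W * ν⁻¹ = x * (δ * W * δ⁻¹) * x⁻¹ := by rw [hνx]; group
    rw [h3]
    exact mul_mem (mul_mem (AS_le_lam _ hx) h2) (inv_mem (AS_le_lam _ hx))
  exact h1 hl

theorem fin_aut (h : N9 K) : Finite (MulAut (PQ K)) := by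
  have := fin_PG h
  infer_instance

/-- the submonoid of the elements which decompose -/
def Dat.M (H : Dat K Γ D) : Submonoid (MulAut (PQ K)) where
  carrier := {γ | ∃ l ∈ LamP (Pt Γ), ∃ ν ∈ Γ, NormAut (⊤ : Subgroup (PG K)) ν ∧ γ = l * ν}
  one_mem' := ⟨1, one_mem _, 1, one_mem _, fun x hx => by rwa [one_mul, inv_one, mul_one], (one_mul 1).symm⟩
  mul_mem' := by
    rintro _ _ ⟨l, hl, ν, hν, hN, rfl⟩ ⟨l', hl', ν', hν', hN', rfl⟩
    exact ⟨l * (ν * l' * ν⁻¹), mul_mem hl (H.conj_lam hν hN hl'), ν * ν', mul_mem hν hν', normAut_mul hN hN', by group⟩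

/-- the subgroup of the elements which decompose -/
def Dat.G1 (H : Dat K Γ D) : Subgroup (MulAut (PQ K)) :=
  { H.M with
    inv_mem' := by
      intro x hx
      have := fin_aut H.nine
      exact inv_mem_of_finite H.M hx }

theorem Dat.lam_le_G1 (H : Dat K Γ D) : LamP (Pt Γ) ≤ H.G1 := fun l hl =>
  ⟨l, hl, 1, one_mem _, fun x hx => by rwa [one_mul, inv_one, mul_one], (mul_one l).symm⟩

theorem Dat.norm_mem_G1 (H : Dat K Γ D) {ν : MulAut (PQ K)} (hν : ν ∈ Γ)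
    (hN : NormAut (⊤ : Subgroup (PG K)) ν) : ν ∈ H.G1 :=
  ⟨1, one_mem _, ν, hν, hN, (one_mul ν).symm⟩

theorem Dat.all (H : Dat K Γ D) {γ : MulAut (PQ K)} (hγ : γ ∈ Γ) : γ ∈ H.G1 := by
  classical
  have h := H.nine
  have h3 := h.three
  have hfin := fin_aut h
  haveI : Fact (Nat.Prime 3) := ⟨Nat.prime_three⟩
  have hsyl := H.par.syl
  have hΓ := H.par.indu
  obtain ⟨d1, hd1, i, hi, ht⟩ := H.ex1
  obtain ⟨δ1, hδ1⟩ := tor_res ht
  have hδΓ : δ1 ∈ Γ := H.par.D_res d1 hd1 δ1 hδ1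
  have hs := star_I h hi
  have hF : ∀ r b, Fr δ1 r b = i * r ∧ Fb δ1 r b = -(i * b) := by
    intro r b
    refine ⟨(tor_F ht hδ1 r b).1, ?_⟩
    rw [(tor_F ht hδ1 r b).2]
    show i * -1 * b = _
    ring
  have hM1 : Mult δ1 (-1) := by
    intro r b r' b'
    rw [(hF r b).1, (hF r b).2, (hF r' b').1, (hF r' b').2]
    unfold fm
    rw [star_neg, star_neg, star_mul', star_mul', star_mul', star_mul', hs]
    linear_combination (r * star b' + star r * b' - r' * star b - star r' * b) * hi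
  -- the conjugates
  have hconj : ∀ g ∈ Γ, g * δ1 * g⁻¹ ∈ H.G1 := by
    intro g hg
    obtain ⟨χ, hχ, hMg⟩ := exists_mult h g
    have hχ2 : χ * -1 * χ = -1 := by rcases hχ with h1 | h1 <;> rw [h1] <;> ring
    have hM : Mult (g * δ1 * g⁻¹) (-1) := by
      have h1 := ((hMg.mul h3 hM1).mul h3 (hMg.inv h3 hχ))
      rwa [hχ2] at h1
    refine main_J h H.wk hΓ hsyl (Γ.mul_mem (Γ.mul_mem hg hδΓ) (Γ.inv_mem hg)) hM (fun r b => ?_)
    have h1 : ∀ r b, Fr (g * δ1 * g⁻¹ * (g * δ1 * g⁻¹)) r b = -r ∧ Fb (g * δ1 * g⁻¹ * (g * δ1 * g⁻¹)) r b = -b := by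
      intro r b
      have e : g * δ1 * g⁻¹ * (g * δ1 * g⁻¹) = g * (δ1 * δ1) * g⁻¹ := by group
      have e1 : ∀ r b, Fr (δ1 * δ1) r b = -r ∧ Fb (δ1 * δ1) r b = -b := by
        intro r b
        rw [Fr_mul h3, Fb_mul h3, (hF _ _).1, (hF _ _).2, (hF _ _).1, (hF _ _).2]
        exact ⟨by linear_combination r * hi, by linear_combination b * hi⟩
      rw [e, Fr_mul h3 (g * (δ1 * δ1)), Fb_mul h3 (g * (δ1 * δ1)), Fr_mul h3 g, Fb_mul h3 g, (e1 _ _).1, (e1 _ _).2,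
        Fr_neg h3, Fb_neg h3]
      exact ⟨by rw [(F_mul_inv h3 g r b).1], by rw [(F_mul_inv h3 g r b).2]⟩
    have h2 := h1 r b
    rwa [Fr_mul h3 (g * δ1 * g⁻¹), Fb_mul h3 (g * δ1 * g⁻¹)] at h2
  -- the Sylow subgroup
  have hAS3 : IsPGroup 3 (AS K) := (UU_isPGroup (Γ := Γ) h).to_le (AS_le_UU h3 hΓ)
  let P0 : Sylow 3 ↥Γ :=
    { toSubgroup := (AS K).subgroupOf Γ
      isPGroup' := hAS3.comap_of_injective _ Γ.subtype_injective
      is_maximal' := by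
        intro P hP hle
        have h1 : P.map Γ.subtype = AS K := by
          refine eq_AS h hsyl (Subgroup.map_subtype_le P) (hP.map _) ?_
          intro x hx
          exact ⟨⟨x, hΓ hx⟩, hle (Subgroup.mem_subgroupOf.2 hx), rfl⟩
        ext x
        rw [Subgroup.mem_subgroupOf, ← h1]
        constructor
        · intro hx
          exact ⟨x, hx, rfl⟩
        · rintro ⟨y, hy, hyx⟩
          rwa [← Subtype.ext hyx] }
  haveI := TT_normal (K := K) h3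
  let N1 : Subgroup ↥Γ := Subgroup.normalClosure {(⟨δ1, hδΓ⟩ : ↥Γ)} ⊔ (TT h3).subgroupOf Γ
  have hN1 : N1.Normal := inferInstance
  have hδN : (⟨δ1, hδΓ⟩ : ↥Γ) ∈ N1 := (le_sup_left : _ ≤ N1) (Subgroup.subset_normalClosure rfl)
  have hPN : (P0 : Subgroup ↥Γ) ≤ N1 := by
    intro x hx
    have hx1 : (x : MulAut (PQ K)) ∈ AS K := hx
    obtain ⟨g, hg⟩ := mem_AS.1 hx1
    have hxF := fun r b => F_conj hg r b
    -- `x = (x⁻¹ δ x) δ⁻¹` modulo the trivial automorphisms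
    have h1 : x⁻¹ * ⟨δ1, hδΓ⟩ * x * (⟨δ1, hδΓ⟩ : ↥Γ)⁻¹ ∈ N1 := by
      have h4 := hN1.conj_mem _ hδN x⁻¹
      rw [inv_inv] at h4
      exact N1.mul_mem h4 (N1.inv_mem hδN)
    have h2 : x * (x⁻¹ * ⟨δ1, hδΓ⟩ * x * (⟨δ1, hδΓ⟩ : ↥Γ)⁻¹)⁻¹ ∈ N1 := by
      refine (le_sup_right : _ ≤ N1) (Subgroup.mem_subgroupOf.2 ?_)
      have e : x * (x⁻¹ * ⟨δ1, hδΓ⟩ * x * (⟨δ1, hδΓ⟩ : ↥Γ)⁻¹)⁻¹ = x * ⟨δ1, hδΓ⟩ * x⁻¹ * (⟨δ1, hδΓ⟩ : ↥Γ)⁻¹ * x := by group
      rw [e]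
      have hxi : ∀ r b, Fr (x : MulAut (PQ K))⁻¹ r b = r ∧ Fb (x : MulAut (PQ K))⁻¹ r b = b + r * g.c := by
        intro r b
        have h4 := F_mul_inv h3 (x : MulAut (PQ K)) r b
        rw [(hxF _ _).1, (hxF _ _).2] at h4
        refine ⟨h4.1, ?_⟩
        have h5 := h4.2
        rw [h4.1] at h5
        linear_combination h5
      have hδi : ∀ r b, Fr δ1⁻¹ r b = -(i * r) ∧ Fb δ1⁻¹ r b = i * b := by
        intro r b
        have h4 := F_mul_inv h3 δ1 r b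
        rw [(hF _ _).1, (hF _ _).2] at h4
        exact ⟨by linear_combination -i * h4.1 + Fr δ1⁻¹ r b * hi, by linear_combination i * h4.2 + Fb δ1⁻¹ r b * hi⟩
      have hall : ∀ r b, Fr ((x : MulAut (PQ K)) * δ1 * (x : MulAut (PQ K))⁻¹ * δ1⁻¹ * (x : MulAut (PQ K))) r b = r ∧
          Fb ((x : MulAut (PQ K)) * δ1 * (x : MulAut (PQ K))⁻¹ * δ1⁻¹ * (x : MulAut (PQ K))) r b = b := by
        intro r b
        simp only [Fr_mul h3, Fb_mul h3, hxF, hxi, hδi, hF]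
        exact ⟨by linear_combination -r * hi, by linear_combination (-b + 3 * r * g.c) * hi - r * g.c * h3⟩
      exact ⟨fun r b => (hall r b).1, fun r b => (hall r b).2⟩
    have h4 := N1.mul_mem h2 h1
    rwa [inv_mul_cancel_right] at h4
  have htop := Sylow.normalizer_sup_eq_top' P0 hPN
  have hle : (⊤ : Subgroup ↥Γ) ≤ H.G1.subgroupOf Γ := by
    rw [← htop]
    refine sup_le ?_ (sup_le ?_ ?_)
    · intro x hx
      rw [Subgroup.mem_subgroupOf]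
      refine H.norm_mem_G1 x.2 ?_
      intro y hy
      have h1 := (Subgroup.mem_normalizer_iff.1 hx ⟨y, hΓ hy⟩).1 hy
      exact h1
    · rw [Subgroup.normalClosure, Subgroup.closure_le]
      intro x hx
      obtain ⟨a, ha, hax⟩ := Group.mem_conjugatesOfSet_iff.1 hx
      rw [Set.mem_singleton_iff] at ha
      subst ha
      obtain ⟨c, hc⟩ := isConj_iff.1 hax
      rw [← hc]
      exact hconj _ c.2
    · intro x hx
      exact H.lam_le_G1 (AS_le_lam _ (TT_le h (Subgroup.mem_subgroupOf.1 hx)))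
  exact Subgroup.mem_subgroupOf.1 (hle (Subgroup.mem_top (⟨γ, hγ⟩ : ↥Γ)))

theorem Dat.ne (H : Dat K Γ D) : (Pt Γ).Nonempty := by
  rw [Set.nonempty_iff_ne_empty]
  intro h0
  apply H.par.nn
  intro γ hγ
  obtain ⟨l, hl, ν, hν, hN, rfl⟩ := H.all hγ
  have h1 : LamP (Pt Γ) ≤ AS K := by
    rw [h0]
    refine sup_le le_rfl ((Subgroup.closure_le _).2 ?_)
    rintro _ ⟨κ, hκ, -⟩
    exact absurd hκ (Set.notMem_empty κ)
  have hl' := h1 hl
  refine normAut_mul (fun x hx => ?_) hN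
  exact mul_mem (mul_mem hl' hx) (inv_mem hl')

theorem Dat.eq (H : Dat K Γ D) : EqLD Γ (LamP (Pt Γ)) D := by
  intro γ
  constructor
  · intro hγ
    obtain ⟨l, hl, ν, hν, hN, rfl⟩ := H.all hγ
    obtain ⟨x, hx, d, hd, δ, hδ, -, rfl⟩ := H.norm hν hN
    exact ⟨l * x, mul_mem hl (AS_le_lam _ hx), d, hd, δ, hδ, (mul_assoc _ _ _).symm⟩
  · rintro ⟨l, hl, d, hd, δ, hδ, rfl⟩
    exact mul_mem (H.lam_le hl) (H.par.D_res d hd δ hδ)

end main

/-- (3A) -/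
theorem stThreeA (hG : StGrp.{u}) : StThreeA.{u} := by
  intro K _ _ p n hyp hq Γ D hpar htor
  have h := N9.of_hyp hyp hq
  have hp3 : p = 3 := by
    have h1 : p ∣ 3 := by
      rw [← hq]
      exact dvd_pow_self p (by have := hyp.hn; omega)
    rcases (Nat.dvd_prime Nat.prime_three).1 h1 with h2 | h2
    · exact absurd h2 hyp.pp.one_lt.ne'
    · exact h2
  subst hp3
  obtain ⟨-, -, g1, g2, -, g3, -, g4⟩ := hG hyp
  have H : Dat K Γ D := by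
    refine ⟨h, fun κ => ?_, g2, hpar, ?_⟩
    · obtain ⟨ε, hε⟩ := g3 rfl κ
      obtain ⟨n, hn⟩ := g4
      obtain ⟨t, ht⟩ := ep_res hε
      exact ⟨t * n * t⁻¹, ε, n, t, hε, hn, ht, rfl⟩
    · obtain ⟨i, hi⟩ := h.ex
      have hs := star_I h hi
      have h3 := h.three
      have hi0 : i ≠ 0 := by
        rintro rfl
        rw [zero_mul, zero_eq_neg] at hi
        exact one_ne_zero hi
      obtain ⟨α, hα⟩ := g1 i (-1) (RingEquiv.refl K) hi0 (neg_ne_zero.2 one_ne_zero) (by rw [star_neg, star_one])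
      have e1 : (1 - i) ^ 2 = i := by linear_combination hi - i * h3
      have e2 : ((1 - i) * star (1 - i))⁻¹ = -1 := by
        rw [star_sub, star_one, hs]
        have e3 : (1 - i) * (1 - -i) = -1 := by linear_combination -hi + h3
        rw [e3, inv_neg, inv_one]
      refine ⟨α, htor (1 - i) ?_ α ?_, i, hi, hα⟩
      · intro h0
        rw [h0] at e1
        exact hi0 (by rw [← e1]; ring)
      · show IsTorP α ((1 - i) ^ 2) (((1 - i) * star (1 - i))⁻¹) (RingEquiv.refl K)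
        rw [e1, e2]
        exact hα
  exact ⟨H.ne, H.inv, H.eq⟩

end Cfsg.Agent.H38.P4
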