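import Cfsg.Agent.H38.P4.Act
import Cfsg.Agent.H802.FusBasic

/-!
# S5210, `q = 3`: `Aut_S(Q)`, its normaliser, the elements `W_κ` (helper38)
-/

set_option autoImplicit false

namespace Cfsg.Agent.H38.P4

open Cfsg Cfsg.FusionSystem Cfsg.Agent.H776.P4
open Cfsg.Agent.H756.PU (NormAut TIAut)

universe u

variable {K : Type u} [Field K] [StarRing K]

/-- `Aut_S(Q)` -/
abbrev AS (K : Type u) [Field K] [StarRing K] : Subgroup (MulAut (PQ K)) := autInducedBy ⊤ (PQ K)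

theorem mem_AS {γ : MulAut (PQ K)} : γ ∈ AS K ↔ ∃ g : PG K, ∀ e : PQ K, ((γ e : PQ K) : PG K) = g * e * g⁻¹ := by
  rw [Cfsg.Agent.H802.mem_autInducedBy_iff]
  exact ⟨fun ⟨g, _, h⟩ => ⟨g, h⟩, fun ⟨g, h⟩ => ⟨g, Subgroup.mem_top g, h⟩⟩

theorem mem_AS_of_inner {γ : MulAut (PQ K)} {g : PQ K} (h : ∀ e : PQ K, γ e = g * e * g⁻¹) : γ ∈ AS K :=
  mem_AS.2 ⟨g, fun e => by rw [h]; rfl⟩

/-- the element of `S` -/
def gc (c : K) (hc : star c = c) : PG K := ⟨0, 0, 0, c, star_zero _, hc⟩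

theorem conj_r (g : PG K) (e : PQ K) : (g * e * g⁻¹).r = (e : PG K).r := by
  simp only [PG.mul_r, PG.inv_r]; ring

theorem conj_b (g : PG K) (e : PQ K) : (g * e * g⁻¹).b = (e : PG K).b - (e : PG K).r * g.c := by
  simp only [PG.mul_b, PG.mul_r, PG.inv_b, PG.inv_c, q_c e]; ring

theorem conj_c (g : PG K) (e : PQ K) : (g * e * g⁻¹).c = 0 := by
  simp only [PG.mul_c, PG.inv_c, q_c e]; ring

theorem PQ_normal (g : PG K) : g ∈ Subgroup.normalizer (PQ K : Set (PG K)) := by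
  rw [Subgroup.mem_normalizer_iff]
  intro x
  show x.c = 0 ↔ (g * x * g⁻¹).c = 0
  simp only [PG.mul_c, PG.inv_c]
  constructor
  · intro h; rw [h]; ring
  · intro h; linear_combination h

theorem exists_conj (g : PG K) : ∃ γ : MulAut (PQ K), ∀ e : PQ K, ((γ e : PQ K) : PG K) = g * e * g⁻¹ :=
  Cfsg.Agent.H802.exists_conjAut (PQ_normal g)

theorem F_conj {γ : MulAut (PQ K)} {g : PG K} (h : ∀ e : PQ K, ((γ e : PQ K) : PG K) = g * e * g⁻¹) (r b : K) :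
    Fr γ r b = r ∧ Fb γ r b = b - r * g.c := by
  unfold Fr Fb
  rw [h]
  exact ⟨conj_r g (mk r b), conj_b g (mk r b)⟩

/-- automorphisms with the same action on `Q/Z` -/
theorem mem_of_same (h : N9 K) {H : Subgroup (MulAut (PQ K))} (hH : AS K ≤ H) {γ δ : MulAut (PQ K)} (hδ : δ ∈ H)
    (hr : ∀ r b, Fr γ r b = Fr δ r b) (hb : ∀ r b, Fb γ r b = Fb δ r b) : γ ∈ H := by
  have h3 := h.three
  have h1 : γ * δ⁻¹ ∈ AS K := by
    obtain ⟨g, hg⟩ := inner_of_triv h (γ := γ * δ⁻¹) (fun r b => by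
      rw [Fr_mul h3, hr]; exact (F_mul_inv h3 δ r b).1) (fun r b => by
      rw [Fb_mul h3, hb]; exact (F_mul_inv h3 δ r b).2)
    exact mem_AS_of_inner hg
  have h2 := H.mul_mem (hH h1) hδ
  rwa [inv_mul_cancel_right] at h2

/-- the element `x` of the root group: `b ↦ b - r c` -/
theorem exists_x (c : K) (hc : star c = c) : ∃ x ∈ AS K, ∀ r b, Fr x r b = r ∧ Fb x r b = b - r * c := by
  obtain ⟨γ, hγ⟩ := exists_conj (gc c hc)
  exact ⟨γ, mem_AS.2 ⟨_, hγ⟩, fun r b => F_conj hγ r b⟩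

section sylow

variable {Γ : Subgroup (MulAut (PQ K))}

theorem PG_card_pow (h3 : (3 : K) = 0) (g : PG K) : g ^ 9 = 1 := by
  have h1 : (g ^ 3).r = 0 ∧ (g ^ 3).c = 0 := by
    rw [pow_succ, pow_two]
    simp only [PG.mul_r, PG.mul_c]
    exact ⟨by linear_combination g.r * h3, by linear_combination g.c * h3⟩
  have h2 : (g ^ 3).b = 0 := by
    rw [pow_succ, pow_two]
    simp only [PG.mul_b, PG.mul_r]
    linear_combination (g.b + g.r * g.c) * h3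
  have h4 : ∀ z : PG K, z.r = 0 → z.c = 0 → z.b = 0 → z ^ 3 = 1 := by
    intro z hr hc hb
    rw [pow_succ, pow_two]
    apply PG.ext
    · simp [hr]
    · simp only [PG.mul_a, PG.mul_b, PG.mul_r, PG.mul_c, hr, hc, hb, star_zero, PG.one_a]
      linear_combination z.a * h3
    · simp only [PG.mul_b, PG.mul_r, hr, hb, hc, PG.one_b]; ring
    · simp [hc]
  have h5 : g ^ 9 = (g ^ 3) ^ 3 := by rw [← pow_mul]
  rw [h5]
  exact h4 _ h1.1 h1.2 h2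

theorem isPGroup_S (h3 : (3 : K) = 0) : IsPGroup 3 (⊤ : Subgroup (PG K)) := fun g =>
  ⟨2, Subtype.ext (PG_card_pow h3 g)⟩

/-- the group of all elements of `Γ` trivial on `C` and on `V/C` -/
def UU (h3 : (3 : K) = 0) (Γ : Subgroup (MulAut (PQ K))) : Subgroup (MulAut (PQ K)) where
  carrier := {γ | γ ∈ Γ ∧ (∀ r b, Fr γ r b = r) ∧ ∀ b, Fb γ 0 b = b}
  one_mem' := ⟨Γ.one_mem, fun _ _ => rfl, fun _ => rfl⟩
  mul_mem' := by
    rintro γ δ ⟨h1, h2, h4⟩ ⟨k1, k2, k4⟩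
    exact ⟨Γ.mul_mem h1 k1, fun r b => by rw [Fr_mul h3, h2, k2], fun b => by rw [Fb_mul h3, k2, k4, h4]⟩
  inv_mem' := by
    rintro γ ⟨h1, h2, h4⟩
    refine ⟨Γ.inv_mem h1, fun r b => ?_, fun b => ?_⟩
    · have h5 := (F_mul_inv h3 γ r b).1
      rwa [h2] at h5
    · have h5 := F_inv_mul h3 γ 0 b
      rw [h2, h4] at h5
      exact h5.2

theorem UU_Fb (h3 : (3 : K) = 0) {γ : MulAut (PQ K)} (hγ : γ ∈ UU h3 Γ) (r b : K) : Fb γ r b = b + Fb γ r 0 := by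
  have h1 := Fb_add h3 γ 0 b r 0
  rw [zero_add, add_zero, hγ.2.2] at h1
  exact h1

theorem UU_isPGroup (h : N9 K) : IsPGroup 3 (UU h.three Γ) := by
  have h3 := h.three
  rintro ⟨γ, hγ⟩
  have hcube : ∀ r b, Fr (γ ^ 3) r b = r ∧ Fb (γ ^ 3) r b = b := by
    intro r b
    rw [pow_succ, pow_two]
    refine ⟨?_, ?_⟩
    · rw [Fr_mul h3, Fr_mul h3, hγ.2.1, hγ.2.1, hγ.2.1]
    · rw [Fb_mul h3, Fb_mul h3, hγ.2.1, hγ.2.1, UU_Fb h3 hγ r, UU_Fb h3 hγ r (Fb γ r b), UU_Fb h3 hγ r b]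
      linear_combination Fb γ r 0 * h3
  obtain ⟨g, hg⟩ := inner_of_triv h (fun r b => (hcube r b).1) (fun r b => (hcube r b).2)
  have h9 : (γ ^ 3) ^ 9 = 1 := by
    have h4 : γ ^ 3 = MulAut.conj g := by
      ext1 e
      rw [hg, MulAut.conj_apply]
    rw [h4, ← map_pow]
    have h5 : g ^ 9 = 1 := Subtype.ext (PG_card_pow h3 (g : PG K))
    rw [h5, map_one]
  refine ⟨3, Subtype.ext ?_⟩
  show γ ^ 27 = 1
  rw [← h9, ← pow_mul]

theorem AS_le_UU (h3 : (3 : K) = 0) (hΓ : AS K ≤ Γ) : AS K ≤ UU h3 Γ := by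
  intro γ hγ
  obtain ⟨g, hg⟩ := mem_AS.1 hγ
  refine ⟨hΓ hγ, fun r b => (F_conj hg r b).1, fun b => ?_⟩
  rw [(F_conj hg 0 b).2]
  ring

theorem fin_PG (h : N9 K) : Finite (PG K) := by
  have := h.fin
  refine Finite.of_injective (fun g : PG K => (g.r, g.a, g.b, g.c)) ?_
  intro g g' hg
  simp only [Prod.mk.injEq] at hg
  exact PG.ext hg.1 hg.2.1 hg.2.2.1 hg.2.2.2

/-- a 3-subgroup of `Γ` containing `Aut_S(Q)` is `Aut_S(Q)` -/
theorem eq_AS (h : N9 K)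
    (hsyl : ∀ P : Subgroup (MulAut (PQ K)), P ≤ Γ → IsPGroup 3 P → ∃ g ∈ Γ, ∀ x ∈ P, g * x * g⁻¹ ∈ AS K)
    {P : Subgroup (MulAut (PQ K))} (hP : P ≤ Γ) (hP3 : IsPGroup 3 P) (hle : AS K ≤ P) : P = AS K := by
  have := fin_PG h
  have hfin : Finite (MulAut (PQ K)) := inferInstance
  obtain ⟨g, -, hg⟩ := hsyl P hP hP3
  have h1 : P.map (MulAut.conj g).toMonoidHom ≤ AS K := by
    rintro _ ⟨x, hx, rfl⟩
    exact hg x hx
  have h2 : Nat.card P ≤ Nat.card (AS K) := by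
    have h4 : Nat.card (P.map (MulAut.conj g).toMonoidHom) = Nat.card P :=
      Subgroup.card_map_of_injective (MulAut.conj g).injective
    rw [← h4]
    exact Subgroup.card_le_of_le h1
  exact (Subgroup.eq_of_le_of_card_ge hle h2).symm

/-- an element of `Γ` stabilising `C` normalises `Aut_S(Q)` -/
theorem normAut_of (h : N9 K) (hΓ : AS K ≤ Γ)
    (hsyl : ∀ P : Subgroup (MulAut (PQ K)), P ≤ Γ → IsPGroup 3 P → ∃ g ∈ Γ, ∀ x ∈ P, g * x * g⁻¹ ∈ AS K)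
    {γ : MulAut (PQ K)} (hγ : γ ∈ Γ) (hC : ∀ b, Fr γ 0 b = 0) : NormAut (⊤ : Subgroup (PG K)) γ := by
  have h3 := h.three
  have hU : UU h3 Γ = AS K := eq_AS h hsyl (fun x hx => hx.1) (UU_isPGroup h) (AS_le_UU h3 hΓ)
  intro x hx
  show γ * x * γ⁻¹ ∈ AS K
  rw [← hU]
  have hx' := hx
  obtain ⟨g, hg⟩ := mem_AS.1 hx
  -- the inverse stabilises C
  have hinj : Function.Injective fun b : K => Fb γ 0 b := by
    intro b b' hb
    have h1 : Fb γ 0 b = Fb γ 0 b' := hb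
    have h2 := (F_inv_mul h3 γ 0 b).2
    have h4 := (F_inv_mul h3 γ 0 b').2
    rw [hC, h1] at h2
    rw [hC] at h4
    rw [← h2, h4]
  have := h.fin
  have hsurj := Finite.surjective_of_injective hinj
  have hCi : ∀ b, Fr γ⁻¹ 0 b = 0 := by
    intro b
    obtain ⟨b', hb'⟩ := hsurj b
    have h1 := (F_inv_mul h3 γ 0 b').1
    rw [hC] at h1
    have h2 : Fb γ 0 b' = b := hb'
    rwa [h2] at h1
  have hkey : ∀ r b, Fr γ (Fr γ⁻¹ r b) (Fb γ⁻¹ r b - Fr γ⁻¹ r b * g.c) = r := by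
    intro r b
    have h1 := Fr_add h3 γ (Fr γ⁻¹ r b) (Fb γ⁻¹ r b) 0 (-(Fr γ⁻¹ r b * g.c))
    rw [add_zero, hC, add_zero, (F_mul_inv h3 γ r b).1, ← sub_eq_add_neg] at h1
    exact h1
  refine ⟨Γ.mul_mem (Γ.mul_mem hγ (hΓ hx')) (Γ.inv_mem hγ), fun r b => ?_, fun b => ?_⟩
  · rw [Fr_mul h3, Fr_mul h3, (F_conj hg _ _).1, (F_conj hg _ _).2]
    exact hkey r b
  · rw [Fb_mul h3, Fb_mul h3, (F_conj hg _ _).1, (F_conj hg _ _).2, hCi, zero_mul, sub_zero]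
    have h1 := F_mul_inv h3 γ 0 b
    rw [hCi] at h1
    exact h1.2

end sylow

end Cfsg.Agent.H38.P4
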